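import Cfsg.Agent.H561.RV.Defs
import Cfsg.Agent.H679.Table
import Cfsg.Agent.H679.LieAlt
import Cfsg.Agent.S0254
import Cfsg.Agent.S2602

/-!
# TEAM RV: `ORow` for the groups whose outer automorphism group is a `2`-group (helper205)

Alternating groups, sporadic groups, the Tits group.
-/

set_option autoImplicit false

namespace Cfsg.Agent.H205.RV

open Cfsg Subgroup Cfsg.Agent.H561.RV Cfsg.Agent.H679

universe u

variable {π : Set ℕ} {S : Type u} [Group S]

/-- automorphisms of odd order are inner -/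
theorem inner_of_outTwo (h : OutTwo S) {φ : MulAut S} (hφ : Odd (orderOf φ)) :
    ∃ s : S, φ = MulAut.conj s := by
  obtain ⟨n, hn⟩ := h φ
  have h1 : φ ∈ (MulAut.conj : S →* MulAut S).range :=
    mem_of_pow_mem (Nat.Coprime.pow_left n (Nat.coprime_two_left.2 hφ)) hn
      (by rw [pow_orderOf_eq_one]; exact one_mem _)
  obtain ⟨s, hs⟩ := h1
  exact ⟨s, hs.symm⟩

/-- **`Out S` a `2`-group gives `ORow`** -/
theorem orow_of_outTwo (h : OutTwo S) : ORow π S := by
  intro H _ φ hφ
  obtain ⟨s, rfl⟩ := inner_of_outTwo h hφ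
  exact FixC.conj s H

/-- **`Out S` a `2`-group gives `AutOdd`** -/
theorem autOdd_of_outTwo (h : OutTwo S) : AutOdd S := by
  intro P φ hφ
  obtain ⟨s, rfl⟩ := inner_of_outTwo h hφ
  refine ⟨s⁻¹, fun x _ => ?_⟩
  rw [MulAut.conj_apply]
  group

theorem outTwo_six : OutTwo (alternatingGroup (Fin 6)) := by
  have : Fact (Nat.Prime 3) := ⟨Nat.prime_three⟩
  have : Fintype (GaloisField 3 2) := Fintype.ofFinite _
  have hF : Fintype.card (GaloisField 3 2) = 3 ^ 2 := by
    rw [← Nat.card_eq_fintype_card]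
    exact GaloisField.card 3 2 (by norm_num)
  obtain ⟨e⟩ := Cfsg.Agent.S0254.result (F := GaloisField 3 2) (by rw [hF]; norm_num)
  refine OutTwo.congr e.symm ?_
  obtain ⟨φ, h1, -, h2⟩ := Cfsg.Agent.S2602.result (F := GaloisField 3 2) (p := 3) (f := 2) (by norm_num) hF (by norm_num)
  have h3 := Subgroup.card_mul_index φ.ker
  rw [h2, Subgroup.index_ker, MonoidHom.range_eq_top.2 h1, Subgroup.card_top] at h3
  have h4 : Nat.card (Multiplicative (ZMod 2)) = 2 := by
    rw [Nat.card_congr Multiplicative.toAdd, Nat.card_zmod]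
  rw [h4] at h3
  intro α
  refine ⟨2, ?_⟩
  have h5 : Nat.card (Cfsg.Out (Matrix.ProjectiveSpecialLinearGroup (Fin 2) (GaloisField 3 2))) = 4 := by
    rw [← h3]
    norm_num
  have h6 := pow_card_eq_one' (x := (QuotientGroup.mk α :
    Cfsg.Out (Matrix.ProjectiveSpecialLinearGroup (Fin 2) (GaloisField 3 2))))
  rw [h5] at h6
  exact (QuotientGroup.eq_one_iff (α ^ 4)).1 h6

theorem outTwo_alt' {n : ℕ} (hn : 5 ≤ n) : OutTwo (alternatingGroup (Fin n)) := by
  by_cases h6 : n = 6
  · subst h6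
    exact outTwo_six
  · exact outTwo_alt hn h6

/-- **alternating groups** -/
theorem orow_alt {n : ℕ} (hn : 5 ≤ n) : ORow π (alternatingGroup (Fin n)) := orow_of_outTwo (outTwo_alt' hn)

theorem orow_isAlternating (h : IsAlternating S) : ORow π S := by
  obtain ⟨n, hn, ⟨e⟩⟩ := h
  exact orow_of_outTwo (OutTwo.congr e (outTwo_alt' hn))

/-- **sporadic groups** -/
theorem orow_spor (h : IsSporadicGroup S) : ORow π S := orow_of_outTwo (outTwo_sporadic h)

/-- **the Tits group** -/
theorem orow_tits (h : Lie.IsoTits S) : ORow π S := orow_of_outTwo (SporOut.tits h)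

theorem autOdd_isAlternating (h : IsAlternating S) : AutOdd S := by
  obtain ⟨n, hn, ⟨e⟩⟩ := h
  exact autOdd_of_outTwo (OutTwo.congr e (outTwo_alt' hn))

theorem autOdd_spor (h : IsSporadicGroup S) : AutOdd S := autOdd_of_outTwo (outTwo_sporadic h)

theorem autOdd_tits (h : Lie.IsoTits S) : AutOdd S := autOdd_of_outTwo (SporOut.tits h)

end Cfsg.Agent.H205.RV
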